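import Cfsg.Agent.H95.Rl.RedA
import Cfsg.Agent.H851.Rl.Tools

/-!
# S3691, row `PSL_n(q)`: PSL-16c, `(q, n) = (2, 21)` (helper848)
-/

set_option autoImplicit false

namespace Cfsg.Agent.H848.Rl

open Cfsg Cfsg.Geo Matrix Module Cfsg.Agent.H454.Reg
open Cfsg.Agent.H851.Rl (pg Pt Big Ext Uni GPPS gpps_of list10 ext_dvd block_card point_of not_sl_le)
open Cfsg.Agent.H95.Rl (irr_of red_of out_cases ppd_of_big big_one)
open Cfsg.Agent.H728.DghpNum (Ppd)
open scoped MatrixGroups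

universe u

section tools

variable {G : Type u} [Group G] [Finite G] {T : Subgroup G} {F : Type} [Field F] [Fintype F] {n : ℕ}

/-- `side` for a `q`-primitive prime -/
theorem side' {X Y : Subgroup G} (h : Fac T X Y) (hn : 3 ≤ n)
    (e : T ≃* Matrix.ProjectiveSpecialLinearGroup (Fin n) F) {p f k r : ℕ} (hp : p.Prime) (hF : Fintype.card F = p ^ f)
    (hP : Ppd (Fintype.card F) k r) (hk : n < 2 * k) (hkn : k ≤ n) (hrf : ¬ r ∣ 2 * f) :
    (r ∣ Nat.card (pg e X) ∧ ¬ r ∣ Nat.card (pg e Y)) ∨ (r ∣ Nat.card (pg e Y) ∧ ¬ r ∣ Nat.card (pg e X)) := by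
  have hv1 : r ∣ r ^ (Fintype.card F ^ k - 1).factorization r := by
    apply dvd_pow_self
    have h4 : r ∣ Fintype.card F ^ k - 1 := by
      have h5 : 1 ≤ Fintype.card F ^ k := Nat.one_le_pow _ _ Fintype.card_pos
      rw [← ZMod.natCast_eq_zero_iff, Nat.cast_sub h5, Nat.cast_one, sub_eq_zero, Nat.cast_pow,
        ← orderOf_dvd_iff_pow_eq_one, hP.ord]
    have h6 : 1 < Fintype.card F ^ k := Nat.one_lt_pow (by omega) Fintype.one_lt_card
    exact (hP.prime.factorization_pos_of_dvd (by omega) h4).ne'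
  rcases H815.Rl.side h hn e hp hF hP.prime hP.ord hk hkn hrf with ⟨h4, h5⟩ | ⟨h4, h5⟩
  · exact Or.inl ⟨hv1.trans h4, h5⟩
  · exact Or.inr ⟨hv1.trans h4, h5⟩

/-- a group of order divisible by a primitive prime of degree `n - 1`, not irreducible: a point, after a change of `e` -/
theorem point_of_red {m : ℕ} (hm : 2 ≤ m) (e : T ≃* Matrix.ProjectiveSpecialLinearGroup (Fin (m + 1)) F) (Y : Subgroup G)
    {r : ℕ} (hr : Ppd (Fintype.card F) m r) (h : r ∣ Nat.card (pg e Y)) (hirr : ¬ ActsIrreducibly (matrixSet (pg e Y))) :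
    ∃ (e' : T ≃* Matrix.ProjectiveSpecialLinearGroup (Fin (m + 1)) F) (v : Fin (m + 1) → F), v ≠ 0 ∧
      (∀ x ∈ pg e' Y, ∃ c : F, (x : Matrix (Fin (m + 1)) (Fin (m + 1)) F) *ᵥ v = c • v) ∧
      ∀ Z : Subgroup G, Nat.card (pg e' Z) = Nat.card (pg e Z) := by
  rcases red_of hr h hirr with ⟨v, hv, h3⟩ | ⟨W, hW, h3⟩
  · exact ⟨e, v, hv, h3, fun _ => rfl⟩
  · exact point_of (by omega) e Y (Or.inr hW) h3

end tools

section

variable {G : Type u} [Group G] [Finite G] {T : Subgroup G} {F : Type} [Field F] [Fintype F]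

theorem big337 : Big 2 1 21 337 1 :=
  big_one Nat.prime_two (by norm_num) (by norm_num) (by norm_num)
    (by intro i h1 h2; interval_cases i <;> norm_num) (by norm_num)

theorem big524287 : Big 2 1 19 524287 1 :=
  big_one Nat.prime_two (by norm_num) (by norm_num) (by norm_num)
    (by intro i h1 h2; interval_cases i <;> norm_num) (by norm_num)

theorem ppd41 : Ppd 2 20 41 :=
  ⟨by norm_num, H951.Rl.ord_of_prim le_rfl (by norm_num) (by norm_num)
    (by intro i h1 h2; interval_cases i <;> norm_num), by norm_num⟩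

theorem not_dvd_21_19 {s : ℕ} (hs : s.Prime) (h1 : s ∣ 21) (h2 : s ∣ 19) : False := by
  rw [Nat.prime_dvd_prime_iff_eq hs (by norm_num)] at h2
  subst h2
  revert h1
  norm_num

theorem core21 (hF : Fintype.card F = 2)
    (hL : ∀ {n : ℕ} {R : Subgroup (GL (Fin n) F)} {k r : ℕ}, Big 2 1 k r 1 → 10 ≤ n → n < 2 * k → r ∣ Nat.card R →
      ActsIrreducibly (matrixSet R) → specialLinear (Fin n) F ≤ R ∨ Cfsg.Agent.H851.Rl.Out k R)
    {X Y : Subgroup G} (h : Fac T X Y) (e : T ≃* Matrix.ProjectiveSpecialLinearGroup (Fin 21) F)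
    (hX : 337 ∣ Nat.card (pg e X)) :
    ∃ (e' : T ≃* Matrix.ProjectiveSpecialLinearGroup (Fin 21) F) (v : Fin 21 → F), Pt (pg e' Y) v := by
  have hF1 : Fintype.card F = 2 ^ 1 := by rw [pow_one, hF]
  have hP21 := ppd_of_big hF big337
  have hP19 := ppd_of_big hF big524287
  have hP20 : Ppd (Fintype.card F) 20 41 := by rw [hF]; exact ppd41
  have hne : Nonempty (Fin 21) := ⟨0⟩
  have hP21' : Ppd (Fintype.card F) (Fintype.card (Fin 21)) 337 := by rw [Fintype.card_fin]; exact hP21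
  obtain ⟨s, hs, hs1, -, hE⟩ : ∃ s, s.Prime ∧ s ∣ Fintype.card (Fin 21) ∧ s ∣ 21 ∧ Ext s (pg e X) := by
    rcases hL big337 (by norm_num) (by norm_num) hX (irr_of hP21' hX) with h3 | h3
    · exact absurd h3 (not_sl_le e h.not_le_left)
    · exact out_cases Nat.prime_two hF (by decide) h3
  rw [Fintype.card_fin] at hs1
  have hs21 : s ≤ 21 := Nat.le_of_dvd (by norm_num) hs1
  have hn19 : ¬ 524287 ∣ Nat.card (pg e X) := by
    intro hd
    rcases ext_dvd (p := 2) (f := 1) (k' := 19) hs hF1 big524287.prime big524287.ord le_rfl (by norm_num)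
      (by rw [Fintype.card_fin]; norm_num) hne hE hd with h4 | h4
    · omega
    · exact not_dvd_21_19 hs hs1 h4
  have hn20 : ¬ 41 ∣ Nat.card (pg e X) := by
    intro hd
    rcases ext_dvd (p := 2) (f := 1) (k' := 20) hs hF1 ppd41.prime (by rw [one_mul]; exact ppd41.ord) le_rfl
      (by norm_num) (by rw [Fintype.card_fin]; norm_num) hne hE hd with h4 | h4
    · omega
    · have h5 : s ∣ 1 := (Nat.dvd_add_right h4).1 hs1
      exact hs.one_lt.ne' (Nat.dvd_one.1 h5)
  have hY19 : 524287 ∣ Nat.card (pg e Y) := by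
    rcases side' h (by norm_num) e Nat.prime_two hF1 hP19 (by norm_num) (by norm_num) (by norm_num) with h4 | h4
    · exact absurd h4.1 hn19
    · exact h4.1
  have hY20 : 41 ∣ Nat.card (pg e Y) := by
    rcases side' h (by norm_num) e Nat.prime_two hF1 hP20 (by norm_num) (by norm_num) (by norm_num) with h4 | h4
    · exact absurd h4.1 hn20
    · exact h4.1
  have hred : ¬ ActsIrreducibly (matrixSet (pg e Y)) := by
    intro hirr
    rcases hL big524287 (by norm_num) (by norm_num) hY19 hirr with h3 | h3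
    · exact not_sl_le e h.not_le_right h3
    · obtain ⟨t, ht, ht1, ht2, -⟩ := out_cases Nat.prime_two hF (by decide) h3
      rw [Fintype.card_fin] at ht1
      exact not_dvd_21_19 ht ht1 ht2
  obtain ⟨e₁, v, hv, hfix, hcard⟩ := point_of_red (m := 20) (by norm_num) e Y hP20 hY20 hred
  refine ⟨e₁, v, ?_⟩
  by_contra hno
  obtain ⟨S, hS, -, hS2⟩ := block_card hv (Cfsg.Agent.H851.Rl.pg_le e₁ Y) hfix hno
  have hkS : ∀ {r : ℕ}, r.Prime → ¬ r ∣ Fintype.card F → r ∣ Nat.card (pg e Y) → r ∣ Nat.card S := by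
    intro r hr hrF hrY
    have := hS2 r 1 hr hrF (by rw [hcard, pow_one]; exact hrY)
    rwa [pow_one] at this
  have hS19 := hkS hP19.prime hP19.ndvd hY19
  have hS20 := hkS hP20.prime hP20.ndvd hY20
  have hP20' : Ppd (Fintype.card F) (Fintype.card (Fin 20)) 41 := by rw [Fintype.card_fin]; exact hP20
  rcases hL big524287 (by norm_num) (by norm_num) hS19 (irr_of hP20' hS20) with h3 | h3
  · exact hS h3
  · obtain ⟨t, ht, ht1, ht2, -⟩ := out_cases Nat.prime_two hF (by decide) h3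
    rw [Fintype.card_fin] at ht1
    have h5 : t ∣ 1 := (Nat.dvd_add_right ht2).1 ht1
    exact ht.one_lt.ne' (Nat.dvd_one.1 h5)

/-- **PSL-16c** -/
theorem red_21 (hP : H659.CovCore.S5948Stmt.{0}) {X Y : Subgroup G} (h : Fac T X Y)
    (e : T ≃* Matrix.ProjectiveSpecialLinearGroup (Fin 21) F) (hq : Fintype.card F = 2) :
    ∃ (e' : T ≃* Matrix.ProjectiveSpecialLinearGroup (Fin 21) F) (v : Fin 21 → F), Pt (pg e' X) v ∨ Pt (pg e' Y) v := by
  have hL : ∀ {n : ℕ} {R : Subgroup (GL (Fin n) F)} {k r : ℕ}, Big 2 1 k r 1 → 10 ≤ n → n < 2 * k → r ∣ Nat.card R →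
      ActsIrreducibly (matrixSet R) → specialLinear (Fin n) F ≤ R ∨ Cfsg.Agent.H851.Rl.Out k R := by
    intro n R k r hB h10 hn hR hirr
    by_cases h1 : specialLinear (Fin n) F ≤ R
    · exact Or.inl h1
    · right
      exact list10 (gpps_of hP) (by rw [pow_one, hq]) hB (by rwa [Fintype.card_fin]) (by rwa [Fintype.card_fin])
        (by rwa [pow_one]) hirr h1
  have hF1 : Fintype.card F = 2 ^ 1 := by rw [pow_one, hq]
  rcases side' h (by norm_num) e Nat.prime_two hF1 (ppd_of_big hq big337) (by norm_num) (by norm_num) (by norm_num) with h4 | h4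
  · obtain ⟨e', v, h5⟩ := core21 hq hL h e h4.1
    exact ⟨e', v, Or.inr h5⟩
  · obtain ⟨e', v, h5⟩ := core21 hq hL h.symm e h4.1
    exact ⟨e', v, Or.inl h5⟩

end

end Cfsg.Agent.H848.Rl
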